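/-
Generic lemmas on fusion systems of groups: centric and radical subgroups from group-theoretic data.
-/
import Cfsg.Agent.Lib.Fusion.Invariant
import Cfsg.Agent.Lib.Fusion.Radical
import Cfsg.Agent.Lib.Fusion.Induction
import Cfsg.Agent.Lib.Fusion.Framework
import Cfsg.Agent.Lib.Fusion.NormalSub
import Cfsg.Agent.Lib.Fusion.AdmSys

set_option autoImplicit false

namespace Cfsg.Agent.Lib.PSLFus

open Cfsg Cfsg.FusionSystem Cfsg.Agent.Lib.Fusion

variable {G : Type*} [Group G]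

/-- The elements normalizing `R` and inducing an automorphism in `M`. -/
def conjPre (R : Subgroup G) (M : Subgroup (MulAut R)) : Subgroup G where
  carrier := {g | ∃ h : g ∈ Subgroup.normalizer (R : Set G), conjAut R g h ∈ M}
  mul_mem' := by
    rintro a b ⟨h1, h2⟩ ⟨h3, h4⟩
    refine ⟨Subgroup.mul_mem _ h1 h3, ?_⟩
    rw [conjAut_mul' R a b h1 h3]
    exact M.mul_mem h2 h4
  one_mem' := by
    refine ⟨Subgroup.one_mem _, ?_⟩
    rw [conjAut_one]
    exact M.one_mem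
  inv_mem' := by
    rintro a ⟨h1, h2⟩
    refine ⟨Subgroup.inv_mem _ h1, ?_⟩
    rw [conjAut_inv' R a h1]
    exact M.inv_mem h2

lemma mem_conjPre {R : Subgroup G} {M : Subgroup (MulAut R)} {g : G} :
    g ∈ conjPre R M ↔ ∃ h : g ∈ Subgroup.normalizer (R : Set G), conjAut R g h ∈ M := Iff.rfl

/-- A criterion for centric subgroups. -/
theorem isCentric_of_cent {S R : Subgroup G} (hRS : R ≤ S)
    (h : ∀ x, (∀ r ∈ R, r * x = x * r) → x ∈ R) : (groupFusionSystem S).IsCentric R := by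
  refine ⟨hRS, fun Q ⟨φ, hφ, hr⟩ y hy => ?_⟩
  obtain ⟨-, -, g, hg⟩ := hφ
  have hc := (mem_centralizerIn.1 hy).2
  have h1 : g⁻¹ * y * g ∈ R := h _ fun r hr' => by
    have h2 : φ ⟨r, hr'⟩ ∈ Q := by
      rw [← hr]
      exact ⟨_, rfl⟩
    have h3 := hc _ h2
    rw [hg] at h3
    simp only at h3
    have h4 : g⁻¹ * (g * r * g⁻¹ * y) * g = g⁻¹ * (y * (g * r * g⁻¹)) * g := by rw [h3]
    calc r * (g⁻¹ * y * g) = g⁻¹ * (g * r * g⁻¹ * y) * g := by group
      _ = g⁻¹ * (y * (g * r * g⁻¹)) * g := h4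
      _ = g⁻¹ * y * g * r := by group
  rw [← hr]
  refine ⟨⟨_, h1⟩, ?_⟩
  rw [hg]
  simp only
  group

/-- Strongly closed subgroups are closed under conjugation inside `S`. -/
theorem sc_conj {S T : Subgroup G} (hT : (groupFusionSystem S).StronglyClosed T) {x g : G} (hx : x ∈ T)
    (h : g * x * g⁻¹ ∈ S) : g * x * g⁻¹ ∈ T := by
  have hsub : Subgroup.zpowers x ≤ T := Subgroup.zpowers_le.2 hx
  have hmem : conjHom (Subgroup.zpowers x) g ∈ (groupFusionSystem S).Hom (Subgroup.zpowers x) := by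
    refine ⟨hsub.trans hT.1, ?_, g, fun _ => rfl⟩
    rintro ⟨y, k, rfl⟩
    show g * x ^ k * g⁻¹ ∈ S
    have e : g * x ^ k * g⁻¹ = (g * x * g⁻¹) ^ k := by
      rw [conj_zpow]
    rw [e]
    exact S.zpow_mem h k
  exact hT.2 _ hsub _ hmem ⟨x, Subgroup.mem_zpowers x⟩

/-- A criterion for radical subgroups: the normal `p`-subgroup is trapped in `S ∩ S^w`. -/
theorem isRadical_of [Finite G] {p : ℕ} [Fact p.Prime] (S : Sylow p G) {R : Subgroup G} (hRS : R ≤ (S : Subgroup G))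
    (hSN : (S : Subgroup G) ≤ Subgroup.normalizer (R : Set G)) (hC : ∀ x, (∀ r ∈ R, r * x = x * r) → x ∈ R)
    {w : G} (hw : w ∈ Subgroup.normalizer (R : Set G)) (hw2 : ∀ x ∈ (S : Subgroup G), w⁻¹ * x * w ∈ (S : Subgroup G) → x ∈ R) :
    (groupFusionSystem (S : Subgroup G)).IsRadical p R := by
  have hSp : IsPGroup p (S : Subgroup G) := S.isPGroup'
  refine ⟨hRS, le_antisymm ?_ (inn_le_pCore hSp hRS)⟩
  set A := (groupFusionSystem (S : Subgroup G)).autGroup R with hA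
  have hAe : A = autInducedBy ⊤ R := by
    rw [hA, groupFusionSystem_eq, autGroup_fH le_top hRS]
  set D := (pCore p A).map A.subtype with hD
  have hDnorm : ∀ a ∈ A, ∀ d ∈ D, a * d * a⁻¹ ∈ D := by
    rintro a ha d ⟨d', hd', rfl⟩
    have hn : (pCore p A).Normal := Cfsg.Agent.Lib.Core.pCore_normal p A
    have := hn.conj_mem d' hd' ⟨a, ha⟩
    exact ⟨_, this, rfl⟩
  have hDp : ∀ d ∈ D, ∃ k : ℕ, d ^ p ^ k = 1 := by
    rintro d ⟨d', hd', rfl⟩
    obtain ⟨k, hk⟩ := Cfsg.Agent.Lib.Core.pCore_isPGroup p A ⟨d', hd'⟩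
    refine ⟨k, ?_⟩
    have := congrArg (fun z : pCore p A => ((z : A) : MulAut R)) hk
    simpa using this
  have hconjA : ∀ g (hg : g ∈ Subgroup.normalizer (R : Set G)), conjAut R g hg ∈ A := by
    intro g hg
    rw [hAe]
    exact conjAut_mem (Subgroup.mem_top g) hg
  set Nt := conjPre R D with hNt
  have hNtnorm : ∀ h ∈ Subgroup.normalizer (R : Set G), ∀ g ∈ Nt, h * g * h⁻¹ ∈ Nt := by
    rintro h hh g ⟨hg, hgD⟩
    refine ⟨Subgroup.mul_mem _ (Subgroup.mul_mem _ hh hg) (Subgroup.inv_mem _ hh), ?_⟩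
    rw [conjAut_mul' R _ _ (Subgroup.mul_mem _ hh hg) (Subgroup.inv_mem _ hh), conjAut_mul' R _ _ hh hg, conjAut_inv' R _ hh]
    exact hDnorm _ (hconjA h hh) _ hgD
  have hNtp : IsPGroup p Nt := by
    rintro ⟨g, hg, hgD⟩
    obtain ⟨k, hk⟩ := hDp _ hgD
    have h1 : g ^ p ^ k ∈ R := by
      refine hC _ fun r hr => ?_
      have h2 : ((conjAut R g hg) ^ p ^ k) ⟨r, hr⟩ = ⟨r, hr⟩ := by
        rw [hk]
        rfl
      have h3 : ∀ m : ℕ, (((conjAut R g hg) ^ m) ⟨r, hr⟩ : R).1 = g ^ m * r * (g ^ m)⁻¹ := by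
        intro m
        induction m with
        | zero => simp
        | succ m ih =>
          rw [pow_succ', MulAut.mul_apply, conjAut_coe, ih, pow_succ']
          group
      have h4 := h3 (p ^ k)
      rw [h2] at h4
      have h5 : r * g ^ p ^ k = g ^ p ^ k * r * (g ^ p ^ k)⁻¹ * g ^ p ^ k := by
        rw [← h4]
      rw [h5]
      group
    obtain ⟨j, hj⟩ := hSp ⟨_, hRS h1⟩
    refine ⟨k + j, ?_⟩
    apply Subtype.ext
    have h6 := congrArg (fun z : (S : Subgroup G) => (z : G)) hj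
    simp only [Subgroup.coe_pow, Subgroup.coe_one] at h6 ⊢
    rw [pow_add, pow_mul]
    exact h6
  have hle : (S : Subgroup G) ≤ Subgroup.normalizer (Nt : Set G) := by
    intro g hg
    refine mem_normalizer_of_forall fun x hx => hNtnorm g (hSN hg) x hx
  have hsup : IsPGroup p ((S : Subgroup G) ⊔ Nt : Subgroup G) := IsPGroup.to_sup_of_normal_right' hSp hNtp hle
  have hNtS : Nt ≤ (S : Subgroup G) := by
    have h1 := Sylow.is_maximal' S hsup le_sup_left
    exact h1 ▸ le_sup_right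
  intro d hd
  have hdA : d ∈ A := by
    obtain ⟨d', _, rfl⟩ := hd
    exact d'.2
  rw [hAe] at hdA
  obtain ⟨g, -, hgv⟩ := mem_autInducedBy_iff.1 hdA
  have hgN : g ∈ Subgroup.normalizer (R : Set G) := mem_normalizer_of_conj hgv
  have hde : conjAut R g hgN = d := by
    ext x
    rw [conjAut_coe, hgv]
  have hgNt : g ∈ Nt := ⟨hgN, by rw [hde]; exact hd⟩
  have hgS := hNtS hgNt
  have hg2 := hNtS (hNtnorm w⁻¹ (Subgroup.inv_mem _ hw) g hgNt)
  have hgR : g ∈ R := hw2 g hgS (by simpa using hg2)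
  refine ⟨⟨g, hgR⟩, ?_⟩
  rw [← hde]
  ext x
  simp [MulAut.conj_apply]

end Cfsg.Agent.Lib.PSLFus
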